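import Groth.Agent.Gaga.H980.SmallGerm
import Groth.Agent.Gaga.H145.Hadamard
import Mathlib.Topology.Germ

/-!
# The comparison of local rings, from the Hadamard lemma

Everything in S4314 is deduced from `Hadamard`: a function `G` complex differentiable near `a` is
`G a + ∑ (w i - a i) * H i w` with `H i` complex differentiable near `a`.
-/

set_option autoImplicit false
open CategoryTheory AlgebraicGeometry Topology TopologicalSpace Opposite Filter IsLocalRing
open Groth.Agent.An.H863.PtsBasic Groth.Agent.An.H863.PtsCont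
open Groth.Agent.Gaga.H990.ChartAt Groth.Agent.Gaga.H990.Stalk
open Groth.Agent.Gaga.H980.SmallGerm

noncomputable section

namespace Groth.Agent.Gaga.H980.Completion

/-- The Hadamard lemma in several complex variables. -/
def Hadamard : Prop :=
  ∀ (n : ℕ) (a : Fin n → ℂ) (G : (Fin n → ℂ) → ℂ), (∀ᶠ c in 𝓝 a, DifferentiableAt ℂ G c) →
    ∃ H : Fin n → (Fin n → ℂ) → ℂ, (∀ i, ∀ᶠ c in 𝓝 a, DifferentiableAt ℂ (H i) c) ∧
      ∀ᶠ w in 𝓝 a, G w = G a + ∑ i, (w i - a i) * H i w

variable {X : Scheme.{0}} [X.Over An.SC]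

/-- The value at `x` of a germ of holomorphic function. -/
def val (x : An.Pts X) : stk x →+* ℂ where
  toFun b := Filter.Germ.value (toGerm x b)
  map_one' := by rw [map_one]; rfl
  map_zero' := by rw [map_zero]; rfl
  map_mul' b c := by
    obtain ⟨f, hf, -⟩ := exists_rep x b
    obtain ⟨g, hg, -⟩ := exists_rep x c
    rw [map_mul, hf, hg]; rfl
  map_add' b c := by
    obtain ⟨f, hf, -⟩ := exists_rep x b
    obtain ⟨g, hg, -⟩ := exists_rep x c
    rw [map_add, hf, hg]; rfl

lemma val_eq {x : An.Pts X} {b : stk x} {f : An.Pts X → ℂ} (h : toGerm x b = (f : Germ (𝓝 x) ℂ)) :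
    val x b = f x := by
  change Filter.Germ.value (toGerm x b) = f x
  rw [h]; rfl

lemma val_phi_germ (x : An.Pts X) (W : X.Opens) (hx : x.pt ∈ W) (s : Γ(X, W)) :
    val x (phi x (X.presheaf.germ W x.pt hx s)) = x.ev W hx s := by
  rw [val_eq (toGerm_phi x W hx s), evAt_of_mem hx]

lemma germ_mem_maximalIdeal_iff (x : An.Pts X) (U : X.Opens) (h : x.pt ∈ U) (s : Γ(X, U)) :
    X.presheaf.germ U x.pt h s ∈ maximalIdeal (X.presheaf.stalk x.pt) ↔ x.ev U h s = 0 := by
  rw [mem_maximalIdeal, mem_nonunits_iff, ← Scheme.mem_basicOpen _ _ _ h, ← ev_ne_zero_iff x U h,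
    not_not]

lemma val_phi_eq_zero_iff (x : An.Pts X) (a : X.presheaf.stalk x.pt) :
    val x (phi x a) = 0 ↔ a ∈ maximalIdeal (X.presheaf.stalk x.pt) := by
  obtain ⟨W, hx, s, rfl⟩ := X.presheaf.exists_germ_eq a
  rw [val_phi_germ, germ_mem_maximalIdeal_iff]

/-- A germ with nonzero value is a unit. -/
lemma isUnit_of_val_ne_zero {x : An.Pts X} {b : stk x} (h : val x b ≠ 0) : IsUnit b := by
  obtain ⟨f, hf, hb⟩ := exists_chartAt_of_stk b
  have h0 : f x ≠ 0 := by rwa [val_eq hb] at h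
  obtain ⟨c, hc⟩ := exists_stk_of_chartAt (hf.inv h0)
  refine IsUnit.of_mul_eq_one c (toGerm_injective x ?_)
  rw [map_mul, hb, hc, map_one, ← Germ.coe_mul]
  refine Germ.coe_eq.2 ?_
  filter_upwards [hf.continuousAt.eventually_ne h0] with y hy
  exact mul_inv_cancel₀ hy

/-- `mB` consists of germs vanishing at `x`. -/
lemma map_le_ker (x : An.Pts X) :
    (maximalIdeal (X.presheaf.stalk x.pt)).map (phi x) ≤ RingHom.ker (val x) := by
  rw [Ideal.map_le_iff_le_comap]
  intro a ha
  exact (val_phi_eq_zero_iff x a).2 ha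

/-- Every germ is a constant modulo `mB`, given the Hadamard lemma. -/
lemma exists_const (hH : Hadamard) (x : An.Pts X) (b : stk x) :
    b - phi x (X.presheaf.germ ⊤ x.pt trivial (strU ⊤ (val x b))) ∈
      (maximalIdeal (X.presheaf.stalk x.pt)).map (phi x) := by
  obtain ⟨f, ⟨W, n, s, G, hx, hG, he⟩, hb⟩ := exists_chartAt_of_stk b
  set a : Fin n → ℂ := fun i => evAt x W (s i) with ha
  obtain ⟨H, hH1, hH2⟩ := hH n a G hG
  have hval : val x b = G a := by rw [val_eq hb, he.self_of_nhds]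
  -- the germs `H i ∘ s`
  have hc : ∀ i, ∃ c : stk x, toGerm x c =
      ((fun y => H i (fun j => evAt y W (s j)) : An.Pts X → ℂ) : Germ (𝓝 x) ℂ) := fun i =>
    exists_stk_of_chartAt ⟨W, n, s, H i, hx, hH1 i, Eventually.of_forall fun _ => rfl⟩
  choose c hc using hc
  have key : b - phi x (X.presheaf.germ ⊤ x.pt trivial (strU ⊤ (val x b))) =
      ∑ i, phi x (X.presheaf.germ W x.pt hx (s i - strU W (a i))) * c i := by
    apply toGerm_injective x
    rw [map_sub, map_sum, hb, toGerm_phi]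
    simp only [map_mul, toGerm_phi, hc]
    have h1 : (∑ i, ((fun y => evAt y W (s i - strU W (a i)) : An.Pts X → ℂ) : Germ (𝓝 x) ℂ) *
        ((fun y => H i (fun j => evAt y W (s j)) : An.Pts X → ℂ) : Germ (𝓝 x) ℂ)) =
        ((∑ i, (fun y => evAt y W (s i - strU W (a i)) * H i (fun j => evAt y W (s j))) :
          An.Pts X → ℂ) : Germ (𝓝 x) ℂ) := by
      have h2 := map_sum (Germ.coeRingHom (R := ℂ) (𝓝 x)) (fun i : Fin n => (fun y : An.Pts X =>
        evAt y W (s i - strU W (a i)) * H i (fun j => evAt y W (s j)))) Finset.univ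
      exact h2.symm
    rw [h1]
    change ((f - fun y => evAt y ⊤ (strU ⊤ (val x b)) : An.Pts X → ℂ) : Germ (𝓝 x) ℂ) = _
    refine Germ.coe_eq.2 ?_
    have h3 := (continuousAt_pi_evAt W s hx).eventually hH2
    have h4 : ∀ᶠ y in 𝓝 x, y.pt ∈ W := (An.Pts.isOpen_preimage_pt W).mem_nhds hx
    filter_upwards [he, h3, h4] with y h5 h6 h7
    rw [Pi.sub_apply, h5, h6, evAt_of_mem (show y.pt ∈ (⊤ : X.Opens) from trivial), ev_strU, hval,
      add_sub_cancel_left, Finset.sum_apply]
    refine Finset.sum_congr rfl fun i _ => ?_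
    rw [evAt_of_mem h7 (s i - strU W (a i)), ev_sub, ev_strU, evAt_of_mem h7 (s i)]
  rw [key]
  refine Ideal.sum_mem _ fun i _ => Ideal.mul_mem_right _ _ (Ideal.mem_map_of_mem _ ?_)
  rw [germ_mem_maximalIdeal_iff, ev_sub, ev_strU, ha]
  exact sub_eq_zero.2 (evAt_of_mem hx (s i)).symm

/-- `mB` is the ideal of germs vanishing at `x`. -/
lemma map_eq_ker (hH : Hadamard) (x : An.Pts X) :
    (maximalIdeal (X.presheaf.stalk x.pt)).map (phi x) = RingHom.ker (val x) := by
  refine le_antisymm (map_le_ker x) fun b hb => ?_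
  have h1 := exists_const hH x b
  have h2 : val x b = 0 := hb
  rwa [h2, map_zero, map_zero, map_zero, sub_zero] at h1

lemma val_surjective (x : An.Pts X) : Function.Surjective (val x) := fun c =>
  ⟨phi x (X.presheaf.germ ⊤ x.pt trivial (strU ⊤ c)), by rw [val_phi_germ, ev_strU]⟩

/-- **S4314 from the Hadamard lemma.** -/
theorem of_hadamard (hH : Hadamard) [LocallyOfFiniteType (X ↘ An.SC)] [IsReduced X]
    (x : An.Pts X) :
    (((maximalIdeal (X.presheaf.stalk x.pt)).map (phi x)).IsMaximal ∧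
      ∀ I : Ideal ((An.anSpace X).presheaf.stalk x), I.IsMaximal →
        I = (maximalIdeal (X.presheaf.stalk x.pt)).map (phi x)) ∧
    ∀ n : ℕ,
      (∀ b : (An.anSpace X).presheaf.stalk x, ∃ a : X.presheaf.stalk x.pt,
        phi x a - b ∈ ((maximalIdeal (X.presheaf.stalk x.pt)).map (phi x)) ^ n) ∧
      (∀ a : X.presheaf.stalk x.pt,
        phi x a ∈ ((maximalIdeal (X.presheaf.stalk x.pt)).map (phi x)) ^ n →
        a ∈ (maximalIdeal (X.presheaf.stalk x.pt)) ^ n) := by
  have hmax : ((maximalIdeal (X.presheaf.stalk x.pt)).map (phi x)).IsMaximal := by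
    rw [map_eq_ker hH x]
    exact RingHom.ker_isMaximal_of_surjective (val x) (val_surjective x)
  have happrox : ∀ b : (An.anSpace X).presheaf.stalk x, ∃ a : X.presheaf.stalk x.pt,
      phi x a - b ∈ (maximalIdeal (X.presheaf.stalk x.pt)).map (phi x) := fun b => by
    refine ⟨X.presheaf.germ ⊤ x.pt trivial (strU ⊤ (val x b)), ?_⟩
    rw [← neg_mem_iff, neg_sub]
    exact exists_const hH x b
  refine ⟨⟨hmax, fun I hI => ?_⟩, fun n => ⟨?_, ?_⟩⟩
  · refine hI.eq_of_le hmax.ne_top fun b hb => ?_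
    rw [map_eq_ker hH x]
    by_contra h
    exact hI.ne_top (Ideal.eq_top_of_isUnit_mem I hb (isUnit_of_val_ne_zero h))
  · exact AlgGlue.surj_pow (phi x) (maximalIdeal (X.presheaf.stalk x.pt)) happrox n
  · exact AlgGlue.inj_pow (phi x) (maximalIdeal (X.presheaf.stalk x.pt)) happrox
      (fun n => exists_bound x n) n

/-- The Hadamard lemma. -/
theorem hadamard : Hadamard := by
  intro n a G hG
  obtain ⟨V, hV1, hV2, hV3⟩ := eventually_nhds_iff.1 hG
  obtain ⟨V', hV', hV'o, haV', H, hH, hw⟩ := H145.Hadamard.hadamard hV2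
    (fun c hc => (hV1 c hc).differentiableWithinAt) hV3
  refine ⟨H, fun i => ?_, ?_⟩
  · filter_upwards [hV'o.mem_nhds haV'] with c hc
    exact (hH i).differentiableAt (hV'o.mem_nhds hc)
  · filter_upwards [hV'o.mem_nhds haV'] with w hw'
    exact hw w hw'

end Groth.Agent.Gaga.H980.Completion
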