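import Groth.Agent.Gaga.H980.QuotStalk
import Groth.Agent.Gaga.H976.Defs

/-!
# The analytification of the quotient `H / I H`

* `idealAt_eq_map`: `idealAt I x` is the extension of the stalk ideal `I_x` along `O_{X,x} → hol_x`;
* `exists_quotient`: for `H` coherent, the analytification of `H ⟶ H / I H` is surjective on the
  holomorphic stalks with kernel `idealAt I x • (H^an)_x`.
-/

set_option autoImplicit false
set_option linter.style.haveILetI false

open CategoryTheory AlgebraicGeometry TopologicalSpace Opposite

noncomputable section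

namespace Groth.Agent.Gaga.H980.QuotAlg

open Groth.Agent.Gaga.H975.ModSec Groth.Agent.Gaga.H986.Stalk Groth.Agent.Gaga.H986.Pull
open Groth.Agent.Gaga.H976.Defs Groth.Agent.Gaga.H980.QuotStalk

section Algebra

open TensorProduct

variable {A B : Type*} [CommRing A] [CommRing B] [Algebra A B] {M N : Type*} [AddCommGroup M]
  [Module A M] [AddCommGroup N] [Module A N]

theorem lTensor_eq_zero_iff (g : M →ₗ[A] N) (hg : Function.Surjective g) (J : Ideal A)
    (hJ : LinearMap.ker g = J • ⊤) (t : B ⊗[A] M) :
    g.lTensor B t = 0 ↔ t ∈ (J.map (algebraMap A B)) • (⊤ : Submodule B (B ⊗[A] M)) := by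
  constructor
  · intro ht
    have hex : Function.Exact ((LinearMap.ker g).subtype.lTensor B) (g.lTensor B) :=
      lTensor_exact B (LinearMap.exact_subtype_ker_map g) hg
    obtain ⟨s, rfl⟩ := (hex t).1 ht
    clear ht
    induction s with
    | zero => rw [map_zero]; exact Submodule.zero_mem _
    | add a b ha hb => rw [map_add]; exact Submodule.add_mem _ ha hb
    | tmul b m =>
      have h : ∀ n ∈ J • (⊤ : Submodule A M),
          b ⊗ₜ[A] n ∈ (J.map (algebraMap A B)) • (⊤ : Submodule B (B ⊗[A] M)) := by
        intro n hn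
        refine Submodule.smul_induction_on hn (fun j hj n _ => ?_) fun x y hx hy => ?_
        · have e : b ⊗ₜ[A] (j • n) = algebraMap A B j • (b ⊗ₜ[A] n) := by
            rw [TensorProduct.tmul_smul, algebraMap_smul]
          rw [e]
          exact Submodule.smul_mem_smul (Ideal.mem_map_of_mem _ hj) trivial
        · rw [TensorProduct.tmul_add]
          exact Submodule.add_mem _ hx hy
      exact h m.1 (hJ ▸ m.2)
  · intro ht
    have key : ∀ c ∈ J.map (algebraMap A B), ∀ m : M, c ⊗ₜ[A] g m = 0 := by
      intro c hc m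
      induction hc using Submodule.span_induction with
      | mem c hc =>
        obtain ⟨j, hj, rfl⟩ := hc
        have h1 : j • m ∈ LinearMap.ker g := by
          rw [hJ]; exact Submodule.smul_mem_smul hj trivial
        rw [Algebra.algebraMap_eq_smul_one, TensorProduct.smul_tmul, ← map_smul,
          LinearMap.mem_ker.1 h1, TensorProduct.tmul_zero]
      | zero => rw [TensorProduct.zero_tmul]
      | add a b _ _ ha hb => rw [TensorProduct.add_tmul, ha, hb, add_zero]
      | smul r a _ ha => rw [smul_eq_mul, ← smul_eq_mul, ← TensorProduct.smul_tmul', ha, smul_zero]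
    refine Submodule.smul_induction_on ht (fun r hr n _ => ?_) fun x y hx hy => ?_
    · induction n with
      | zero => rw [smul_zero, map_zero]
      | add a b ha hb => rw [smul_add, map_add, ha trivial, hb trivial, add_zero]
      | tmul b m =>
        rw [TensorProduct.smul_tmul', LinearMap.lTensor_tmul, smul_eq_mul]
        exact key _ (Ideal.mul_mem_right _ _ hr) m
    · rw [map_add, hx, hy, add_zero]

theorem lTensor_surjective' (g : M →ₗ[A] N) (hg : Function.Surjective g) :
    Function.Surjective (g.lTensor B) := LinearMap.lTensor_surjective B hg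

end Algebra

variable {X : Scheme.{0}} [X.Over An.SC]

/-- The comorphism of `X^an ⟶ X`. -/
abbrev aR : ringSheaf X.sheaf ⟶ ((Opens.map (An.ptTop X)).sheafPushforwardContinuous RingCat.{0}
    (Opens.grothendieckTopology X) (Opens.grothendieckTopology (An.top X))).obj
      (ringSheaf (An.hol X)) :=
  An.anRingHom X

theorem holGerm_eq (x : An.Pts X) (U : X.Opens) (hx : x.pt ∈ U) :
    holGerm x U hx = (stR (R := X.sheaf) (R1 := An.hol X) (f := An.ptTop X) aR x).comp
      (X.presheaf.germ U x.pt hx).hom := by
  refine RingHom.ext fun s => ?_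
  exact (stR_gmO (R := X.sheaf) (R1 := An.hol X) (f := An.ptTop X) aR x U hx s).symm

theorem idealAt_eq_map (I : X.IdealSheafData) (x : An.Pts X) :
    idealAt I x = Ideal.map (stR (R := X.sheaf) (R1 := An.hol X) (f := An.ptTop X) aR x)
      (IntMult.stalkIdeal I x.pt) := by
  have key : ∀ (U : X.affineOpens) (hx : x.pt ∈ U.1), (I.ideal U).map (holGerm x U.1 hx) =
      Ideal.map (stR (R := X.sheaf) (R1 := An.hol X) (f := An.ptTop X) aR x)
        (IntMult.stalkIdeal I x.pt) := by
    intro U hx
    rw [CycA.StalkIdeal.stalkIdeal_eq_map I x.pt U hx, holGerm_eq]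
    exact (Ideal.map_map _ _).symm
  apply le_antisymm
  · exact iSup₂_le fun U hx => (key U hx).le
  · obtain ⟨U, hU, hxU, -⟩ :=
      exists_isAffineOpen_mem_and_subset (X := X) (x := x.pt) (U := ⊤) trivial
    exact (key ⟨U, hU⟩ hxU).ge.trans
      (le_iSup₂ (f := fun (U : X.affineOpens) (hx : x.pt ∈ U.1) =>
        (I.ideal U).map (holGerm x U.1 hx)) ⟨U, hU⟩ hxU)

omit [X.Over An.SC] in
/-- The stalk maps of `H986.Stalk` and of `Fdesc` agree. -/
theorem stMap_eq {M N : X.Modules} (g : M ⟶ N) (x : X) (t : M.presheaf.stalk x) :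
    (stMap (R := X.sheaf) g x : _ → _) t = Fdesc.Skyscraper.stalkMap g x t := by
  obtain ⟨V, hV, s, rfl⟩ := TopCat.Presheaf.exists_germ_eq M.presheaf t
  refine (stMap_gm (R := X.sheaf) g x V hV s).trans ?_
  exact (Fdesc.Skyscraper.stalkMap_germ g x V hV s).symm

/-- [QA] quotient of an algebraic sheaf by an algebraic ideal -/
theorem exists_quotient {X : Scheme.{0}} [X.Over An.SC]
    [IsLocallyNoetherian X] (I : X.IdealSheafData) (H : X.Modules) (hH : Coh.IsCoh H) :
    ∃ (H' : X.Modules) (_ : Coh.IsCoh H') (π : (An.analytify X).obj H ⟶ (An.analytify X).obj H'),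
      ∀ x : An.Pts X, Function.Surjective (stMap (R := An.hol X) π x) ∧
        LinearMap.ker (stMap (R := An.hol X) π x) =
          idealAt I x • (⊤ : Submodule (StO (An.hol X) x)
            (St (R := An.hol X) ((An.analytify X).obj H) x)) := by
  refine ⟨quot I H, isCoh_quot I H hH, (An.analytify X).map (proj I H), fun x => ?_⟩
  let adj : An.analytify X ⊣ push (R := X.sheaf) (R1 := An.hol X) (f := An.ptTop X) aR :=
    An.analytifyAdj X
  letI := stAlg (R := X.sheaf) (R1 := An.hol X) (f := An.ptTop X) aR x
  let g : St (R := X.sheaf) H (An.ptTop X x) →ₗ[StO X.sheaf (An.ptTop X x)]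
      St (R := X.sheaf) (quot I H) (An.ptTop X x) :=
    stMap (R := X.sheaf) (proj I H) (An.ptTop X x)
  have hg : Function.Surjective g := by
    intro t
    obtain ⟨s, hs⟩ := proj_surjective I H x.pt t
    exact ⟨s, (stMap_eq (proj I H) x.pt s).trans hs⟩
  have hk : LinearMap.ker g =
      (show Ideal (StO X.sheaf (An.ptTop X x)) from IntMult.stalkIdeal I x.pt) • ⊤ := by
    refine Eq.trans ?_ (ker_proj I H x.pt)
    ext s
    have e : g s = Fdesc.Skyscraper.stalkMap (proj I H) x.pt s := stMap_eq (proj I H) x.pt s
    exact ⟨fun h => e.symm.trans h, fun h => e.trans h⟩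
  have hL : ∀ t, stMap (R := An.hol X) ((An.analytify X).map (proj I H)) x (stEquiv adj H x t) =
      stEquiv adj (quot I H) x (g.lTensor (StO (An.hol X) x) t) :=
    stMap_stEquiv adj (proj I H) x
  constructor
  · intro t
    obtain ⟨t, rfl⟩ := (stEquiv adj (quot I H) x).surjective t
    obtain ⟨t, rfl⟩ := LinearMap.lTensor_surjective (StO (An.hol X) x) hg t
    exact ⟨stEquiv adj H x t, hL t⟩
  · have hm : (idealAt I x • (⊤ : Submodule (StO (An.hol X) x)
            (St (R := An.hol X) ((An.analytify X).obj H) x))) =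
        Submodule.map (stEquiv adj H x).toLinearMap (idealAt I x • ⊤) := by
      rw [Submodule.map_smul'', Submodule.map_top, LinearEquiv.range]
    rw [hm]
    ext t
    obtain ⟨t, rfl⟩ := (stEquiv adj H x).surjective t
    rw [LinearMap.mem_ker, hL, (stEquiv adj (quot I H) x).map_eq_zero_iff,
      lTensor_eq_zero_iff g hg _ hk, idealAt_eq_map]
    constructor
    · intro h
      exact ⟨t, h, rfl⟩
    · rintro ⟨s, h, e⟩
      rw [← (stEquiv adj H x).injective e]
      exact h

end Groth.Agent.Gaga.H980.QuotAlg
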