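import Groth.Agent.Gaga.H980.LocGen
import Groth.Agent.Gaga.H980.QuotAlg
import Groth.Agent.Gaga.H976.Defs2

/-!
# The submodules `I^n N` of an analytic sheaf

[G1c], [G4] of the proof of GAGA, essential surjectivity:
* `exists_gens`: the powers of `idealAt I` are locally generated by finitely many sections;
* `openFam_powFam`, `quot_isFinitePresentation`, `sub_isFiniteType`.
-/

set_option autoImplicit false

open CategoryTheory AlgebraicGeometry TopologicalSpace Opposite

noncomputable section

namespace Groth.Agent.Gaga.H980.PowFam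

open Groth.Agent.Gaga.H975.ModSec Groth.Agent.Gaga.H986.Stalk Groth.Agent.Gaga.H986.Pull
open Groth.Agent.Gaga.H976.Defs Groth.Agent.Gaga.H976.Defs2 Groth.Agent.Gaga.H976.Quot
open Groth.Agent.Gaga.H986.Nak Groth.Agent.Gaga.H976.FPS Groth.Agent.Gaga.H980.LocGen

variable {X : Scheme.{0}} [X.Over An.SC]

/-- [G1] -/
theorem idealAt_eq (I : X.IdealSheafData) (x : An.Pts X) (U : X.affineOpens) (hx : x.pt ∈ U.1) :
    idealAt I x = (I.ideal U).map (holGerm x U.1 hx) := by
  rw [QuotAlg.idealAt_eq_map, CycA.StalkIdeal.stalkIdeal_eq_map I x.pt U hx, QuotAlg.holGerm_eq]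
  exact Ideal.map_map _ _

/-- [G1c] -/
theorem exists_gens [IsLocallyNoetherian X] (I : X.IdealSheafData) (k : ℕ) (x : An.top X) :
    ∃ (V : Opens (An.top X)) (_ : x ∈ V) (n : ℕ) (g : Fin n → O (An.hol X) V),
      ∀ (y : An.top X) (hy : y ∈ V),
        idealAt I (show An.Pts X from y) ^ k =
          Ideal.span (Set.range fun i => gmO (An.hol X) y V hy (g i)) := by
  obtain ⟨U, hU, hxU, -⟩ := exists_isAffineOpen_mem_and_subset (X := X)
    (x := (show An.Pts X from x).pt) (U := ⊤) trivial
  have hN : IsNoetherianRing Γ(X, U) := IsLocallyNoetherian.component_noetherian ⟨U, hU⟩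
  obtain ⟨n, s, hs⟩ := Submodule.fg_iff_exists_fin_generating_family.1
    (IsNoetherian.noetherian ((I.ideal ⟨U, hU⟩) ^ k))
  refine ⟨(An.baseF X).obj U, hxU, n, fun i => (An.toHolApp U).hom (s i), fun y hy => ?_⟩
  rw [idealAt_eq I _ ⟨U, hU⟩ hy, ← Ideal.map_pow, ← hs]
  refine (Ideal.map_span _ _).trans ?_
  rw [← Set.range_comp]
  rfl

theorem locGen [IsLocallyNoetherian X] (I : X.IdealSheafData) (k : ℕ) :
    LocGen (R := An.hol X) (fun y => idealAt I (show An.Pts X from y) ^ k) :=
  exists_gens I k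

/-- [G4] -/
theorem openFam_powFam [IsLocallyNoetherian X] (I : X.IdealSheafData) (n : ℕ) (N : An.AnMod X) :
    OpenFam (R := An.hol X) (N := N) (powFam I n N) :=
  openFam (locGen I n) N

theorem quot_isFinitePresentation [IsLocallyNoetherian X] (I : X.IdealSheafData) (n : ℕ)
    (N : An.AnMod X) (hN : N.IsFinitePresentation) :
    (quotMod (R := An.hol X) (N := N) (powFam I n N)).IsFinitePresentation :=
  (isFinitePresentation_iff (R := An.hol X) _).2 fun x =>
    fps_quot (locGen I n) ((isFinitePresentation_iff (R := An.hol X) N).1 hN x)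

theorem sub_isFiniteType [IsLocallyNoetherian X] (I : X.IdealSheafData) (n : ℕ) (N : An.AnMod X)
    (hN : N.IsFiniteType) :
    (subMod (R := An.hol X) (N := N) (powFam I n N)).IsFiniteType :=
  (isFiniteType_iff (R := An.hol X) _).2 fun x =>
    ft_sub (locGen I n) ((isFiniteType_iff (R := An.hol X) N).1 hN x)

end Groth.Agent.Gaga.H980.PowFam
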