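import Mathlib.RingTheory.Ideal.Maps
import Mathlib.RingTheory.Localization.AtPrime.Basic

/-!
# Pure algebra: comparing `A / m ^ n` and `B / (m B) ^ n`
-/

set_option autoImplicit false

namespace Groth.Agent.Gaga.H980.AlgGlue

variable {A B : Type*} [CommRing A] [CommRing B] (φ : A →+* B) (m : Ideal A)

/-- Elements of `m^k B` are approximated by elements of `m^k` up to `(m B)^N`, if elements of `B`
are approximated by elements of `A` up to `(m B)^N`. -/
theorem approx_of_approx (k N : ℕ) (h : ∀ b : B, ∃ a : A, φ a - b ∈ (m.map φ) ^ N) :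
    ∀ b ∈ (m.map φ) ^ k, ∃ a ∈ m ^ k, φ a - b ∈ (m.map φ) ^ (k + N) := by
  intro b hb
  rw [← Ideal.map_pow, Ideal.map] at hb
  induction hb using Submodule.span_induction with
  | mem b hb =>
    obtain ⟨a, ha, rfl⟩ := hb
    exact ⟨a, ha, by rw [sub_self]; exact Ideal.zero_mem _⟩
  | zero => exact ⟨0, Ideal.zero_mem _, by rw [map_zero, sub_zero]; exact Ideal.zero_mem _⟩
  | add b c _ _ hb hc =>
    obtain ⟨a, ha, ha'⟩ := hb
    obtain ⟨d, hd, hd'⟩ := hc
    refine ⟨a + d, Ideal.add_mem _ ha hd, ?_⟩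
    have : φ (a + d) - (b + c) = (φ a - b) + (φ d - c) := by rw [map_add]; ring
    rw [this]
    exact Ideal.add_mem _ ha' hd'
  | smul c b _ hb =>
    obtain ⟨a, ha, ha'⟩ := hb
    obtain ⟨d, hd⟩ := h c
    refine ⟨d * a, Ideal.mul_mem_left _ _ ha, ?_⟩
    have h1 : φ (d * a) - c • b = c * (φ a - b) + φ a * (φ d - c) := by
      rw [map_mul, smul_eq_mul]; ring
    rw [h1]
    refine Ideal.add_mem _ (Ideal.mul_mem_left _ _ ha') ?_
    rw [pow_add]
    refine Ideal.mul_mem_mul ?_ hd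
    rw [← Ideal.map_pow]
    exact Ideal.mem_map_of_mem φ ha

/-- Approximation modulo all powers from approximation modulo `m B`. -/
theorem surj_pow (h : ∀ b : B, ∃ a : A, φ a - b ∈ m.map φ) (n : ℕ) :
    ∀ b : B, ∃ a : A, φ a - b ∈ (m.map φ) ^ n := by
  induction n with
  | zero => exact fun b => ⟨0, by rw [pow_zero, Ideal.one_eq_top]; trivial⟩
  | succ n ih =>
    intro b
    obtain ⟨a, ha⟩ := h b
    have h1 : φ a - b ∈ (m.map φ) ^ 1 := by rwa [pow_one]
    obtain ⟨c, hc, hc'⟩ := approx_of_approx φ m 1 n ih (φ a - b) h1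
    refine ⟨a - c, ?_⟩
    have h2 : φ (a - c) - b = -(φ c - (φ a - b)) := by rw [map_sub]; ring
    rw [h2, neg_mem_iff, add_comm n 1]
    exact hc'

/-- Approximation of elements of `(m B)^n` by elements of `m^n`, modulo any power. -/
theorem surj_pow_mem (h : ∀ b : B, ∃ a : A, φ a - b ∈ m.map φ) (n N : ℕ) (b : B)
    (hb : b ∈ (m.map φ) ^ n) : ∃ a ∈ m ^ n, φ a - b ∈ (m.map φ) ^ N := by
  obtain ⟨a, ha, ha'⟩ := approx_of_approx φ m n N (surj_pow φ m h N) b hb
  exact ⟨a, ha, Ideal.pow_le_pow_right (Nat.le_add_left N n) ha'⟩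

/-- `A / m^n → B / (m B)^n` is injective if for each `n` the elements of `A` in a high power of `m B`
lie in `m^n`. -/
theorem inj_pow (h : ∀ b : B, ∃ a : A, φ a - b ∈ m.map φ)
    (hN : ∀ n : ℕ, ∃ N : ℕ, ∀ a : A, φ a ∈ (m.map φ) ^ N → a ∈ m ^ n) (n : ℕ) (a : A)
    (ha : φ a ∈ (m.map φ) ^ n) : a ∈ m ^ n := by
  obtain ⟨N, hN⟩ := hN n
  obtain ⟨c, hc, hc'⟩ := surj_pow_mem φ m h n N (φ a) ha
  have h1 : a - c ∈ m ^ n := hN _ (by
    rw [map_sub, ← neg_mem_iff, neg_sub]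
    exact hc')
  have h2 : a = (a - c) + c := by ring
  rw [h2]
  exact Ideal.add_mem _ h1 hc

/-- Passing from `S` to its localization `A` at a prime `p`. -/
theorem exists_of_localization {S : Type*} [CommRing S] [Algebra S A] (p : Ideal S) [p.IsPrime]
    [IsLocalization.AtPrime A p] (I : Ideal B) (n N : ℕ)
    (h : ∀ f : S, φ (algebraMap S A f) ∈ I ^ N → f ∈ p ^ n) (a : A) (ha : φ a ∈ I ^ N) :
    a ∈ (p.map (algebraMap S A)) ^ n := by
  obtain ⟨f, g, rfl⟩ := IsLocalization.exists_mk'_eq p.primeCompl a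
  have h1 : φ (algebraMap S A f) ∈ I ^ N := by
    rw [← IsLocalization.mk'_spec A f g, map_mul]
    exact Ideal.mul_mem_right _ _ ha
  have h2 := Ideal.mem_map_of_mem (algebraMap S A) (h f h1)
  rw [Ideal.map_pow] at h2
  rw [IsLocalization.mk'_eq_mul_mk'_one]
  exact Ideal.mul_mem_right _ _ h2

end Groth.Agent.Gaga.H980.AlgGlue
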