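import Groth.Agent.Gaga.H976.FPC

/-!
# The submodule `J N` for a locally finitely generated family of ideals `J` of the stalks

`T` a space, `R` a sheaf of commutative rings, `J y : Ideal (StO R y)` for all `y`.
* `LocGen J`: near every point `J` is generated by finitely many sections of `R`;
* `openFam`: the family `J y • ⊤` of submodules of the stalks of `N` is open;
* `fps_quot`, `ft_sub`: `N / J N` is finitely presented if `N` is; `J N` is of finite type if `N` is.
-/

set_option autoImplicit false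
set_option linter.dupNamespace false

open CategoryTheory TopologicalSpace Opposite

noncomputable section

namespace Groth.Agent.Gaga.H980.LocGen

open Groth.Agent.Gaga.H975.ModSec Groth.Agent.Gaga.H986.Stalk Groth.Agent.Gaga.H976.Quot
open Groth.Agent.Gaga.H986.Nak Groth.Agent.Gaga.H976.FPS Groth.Agent.Gaga.H976.FPC

variable {T : TopCat.{0}} {R : TopCat.Sheaf CommRingCat.{0} T}

/-- The ideals `J y` are generated near `x` by the sections `g i`. -/
def GenBy (J : ∀ y : T, Ideal (StO R y)) {V : Opens T} {n : ℕ} (g : Fin n → O R V) : Prop :=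
  ∀ (y : T) (hy : y ∈ V), J y = Ideal.span (Set.range fun i => gmO R y V hy (g i))

/-- Near every point `J` is generated by finitely many sections of `R`. -/
def LocGen (J : ∀ y : T, Ideal (StO R y)) : Prop :=
  ∀ x : T, ∃ (V : Opens T) (_ : x ∈ V) (n : ℕ) (g : Fin n → O R V), GenBy J g

/-- The submodules `J y N_y` of the stalks. -/
def fam (J : ∀ y : T, Ideal (StO R y)) (N : Mod R) (y : T) : Submodule (StO R y) (St N y) :=
  J y • ⊤

variable {J : ∀ y : T, Ideal (StO R y)} {N : Mod R}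

theorem GenBy.res {V W : Opens T} (h : W ≤ V) {n : ℕ} {g : Fin n → O R V} (hg : GenBy J g) :
    GenBy J (fun i => resO h (g i)) := by
  intro y hy
  rw [hg y (h hy)]
  congr 1
  exact congrArg Set.range (funext fun i => (gmO_resO y h hy (g i)).symm)

/-- Elements of `J x` extend to sections of `J`. -/
theorem exists_lift (hJ : LocGen J) (x : T) (r : StO R x) (hr : r ∈ J x) :
    ∃ (V : Opens T) (hx : x ∈ V) (s : O R V), gmO R x V hx s = r ∧
      ∀ (y : T) (hy : y ∈ V), gmO R y V hy s ∈ J y := by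
  obtain ⟨V, hx, n, g, hg⟩ := hJ x
  rw [hg x hx, Ideal.span, Submodule.mem_span_range_iff_exists_fun] at hr
  obtain ⟨a, ha⟩ := hr
  obtain ⟨U, hxU, c, hc⟩ := exists_gmO_fin x a
  refine ⟨U ⊓ V, ⟨hxU, hx⟩, ∑ i, (resO (inf_le_left : U ⊓ V ≤ U) (c i) : O R (U ⊓ V)) *
    resO (inf_le_right : U ⊓ V ≤ V) (g i), ?_, ?_⟩
  · rw [map_sum, ← ha]
    refine Finset.sum_congr rfl fun i _ => ?_
    rw [map_mul, gmO_resO, gmO_resO, hc, smul_eq_mul]
  · intro y hy
    rw [map_sum]
    refine Ideal.sum_mem _ fun i _ => ?_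
    rw [map_mul, gmO_resO, gmO_resO]
    refine Ideal.mul_mem_left _ _ ?_
    rw [hg y hy.2]
    exact Ideal.subset_span ⟨i, rfl⟩

theorem openFam (hJ : LocGen J) (N : Mod R) : OpenFam (fam J N) := by
  intro x t ht
  refine Submodule.smul_induction_on ht (fun r hr m _ => ?_) fun a b ha hb => ?_
  · obtain ⟨V, hx, r', rfl, hr'⟩ := exists_lift hJ x r hr
    obtain ⟨W, hxW, m', rfl⟩ := exists_gm N x m
    refine ⟨V ⊓ W, ⟨hx, hxW⟩, (resO (inf_le_left : V ⊓ W ≤ V) r' : O R (V ⊓ W)) •
      (res N (inf_le_right : V ⊓ W ≤ W) m' : Sec N (V ⊓ W)), ?_, ?_⟩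
    · rw [gm_smul, gmO_resO, gm_res]
    · intro y hy
      rw [gm_smul, gmO_resO]
      exact Submodule.smul_mem_smul (hr' y hy.1) trivial
  · obtain ⟨V, hx, s, rfl, hs⟩ := ha
    obtain ⟨W, hxW, s', rfl, hs'⟩ := hb
    refine ⟨V ⊓ W, ⟨hx, hxW⟩, res N inf_le_left s + res N inf_le_right s', ?_, ?_⟩
    · rw [map_add, gm_res, gm_res]
    · intro y hy
      rw [map_add, gm_res, gm_res]
      exact Submodule.add_mem _ (hs y hy.1) (hs' y hy.2)

/-- The products of generators. -/
def prodSec {V : Opens T} {p n : ℕ} (g : Fin p → O R V) (s : Fin n → Sec N V) (k : Fin (p * n)) :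
    Sec N V :=
  g (finProdFinEquiv.symm k).1 • s (finProdFinEquiv.symm k).2

open Pointwise in
theorem span_prodSec {V : Opens T} {p n : ℕ} {g : Fin p → O R V} (hg : GenBy J g)
    {s : Fin n → Sec N V} (hs : Gen N s) (y : T) (hy : y ∈ V) :
    Submodule.span (StO R y) (Set.range fun k => gm N y V hy (prodSec g s k)) = fam J N y := by
  have h1 : (fun k => gm N y V hy (prodSec g s k)) =
      (fun ij : Fin p × Fin n => gmO R y V hy (g ij.1) • gm N y V hy (s ij.2)) ∘
        finProdFinEquiv.symm := funext fun k => gm_smul N y V hy _ _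
  have h2 : (Set.range fun ij : Fin p × Fin n => gmO R y V hy (g ij.1) • gm N y V hy (s ij.2)) =
      (Set.range fun i => gmO R y V hy (g i)) • (Set.range fun j => gm N y V hy (s j)) := by
    ext t
    constructor
    · rintro ⟨ij, rfl⟩
      exact Set.smul_mem_smul ⟨ij.1, rfl⟩ ⟨ij.2, rfl⟩
    · intro ht
      obtain ⟨_, ⟨i, rfl⟩, _, ⟨j, rfl⟩, rfl⟩ := Set.mem_smul.1 ht
      exact ⟨(i, j), rfl⟩
  rw [h1, Set.range_comp, finProdFinEquiv.symm.range_eq_univ, Set.image_univ, h2, fam, hg y hy,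
    ← hs y hy]
  exact (Submodule.span_smul_span _ _).symm

theorem fps_quot (hJ : LocGen J) {x : T} (hN : FPS N x) : FPS (quotMod (fam J N)) x := by
  obtain ⟨W, hxW, n, m, s, r, hs, hr⟩ := id hN
  obtain ⟨V, hxV, p, g, hg⟩ := hJ x
  refine FPS.of_surjective (quotπ (fam J N)) hN (V := V ⊓ W) ⟨hxV, hxW⟩
    (fun y _ => stMap_quotπ_surjective _ y)
    (prodSec (fun i => resO (inf_le_left : V ⊓ W ≤ V) (g i))
      (fun j => res N (inf_le_right : V ⊓ W ≤ W) (s j))) fun y hy => ?_
  rw [ker_stMap_quotπ (openFam hJ N), span_prodSec (hg.res _) (hs.res _)]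

theorem ft_sub (hJ : LocGen J) {x : T} (hN : FTAt N x) : FTAt (subMod (fam J N)) x := by
  obtain ⟨W, hxW, n, s, hs⟩ := hN
  obtain ⟨V, hxV, p, g, hg⟩ := hJ x
  have hspan := span_prodSec (hg.res (inf_le_left : V ⊓ W ≤ V)) (hs.res (inf_le_right : V ⊓ W ≤ W))
  set t := prodSec (fun i => resO (inf_le_left : V ⊓ W ≤ V) (g i))
      (fun j => res N (inf_le_right : V ⊓ W ≤ W) (s j)) with ht
  have hmem : ∀ k, t k ∈ subSec (fam J N) (V ⊓ W) := by
    intro k y hy
    rw [← hspan y hy]
    exact Submodule.subset_span ⟨k, rfl⟩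
  refine ⟨V ⊓ W, ⟨hxV, hxW⟩, p * n,
    fun k => (show Sec (subMod (fam J N)) (V ⊓ W) from
      (⟨t k, hmem k⟩ : subSec (fam J N) (V ⊓ W))), fun y hy => ?_⟩
  have hi := stMap_subι_injective (fam J N) y
  apply Submodule.map_injective_of_injective hi
  rw [Submodule.map_top, range_stMap_subι (openFam hJ N), Submodule.map_span, ← hspan y hy]
  congr 1
  rw [← Set.range_comp]
  refine congrArg Set.range (funext fun k => ?_)
  exact stMap_gm (subι (fam J N)) y (V ⊓ W) hy _

end Groth.Agent.Gaga.H980.LocGen
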