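import Groth.Agent.Ega1.ClosedUnit
import Groth.Agent.CycA.StalkIdeal
import Groth.Agent.FormalA.PullbackQC
import Groth.Agent.CohqA.AffPush
import Groth.Agent.FormalA.ClosedImm

/-!
# The quotient `H / I H` of a module by an ideal sheaf

For an ideal sheaf `I` on a scheme `X` and `H : X.Modules`, `quot I H = i_* i^* H` with
`i : V(I) ⟶ X`, and `proj I H : H ⟶ quot I H` the unit:
* `isCoh_quot`: `quot I H` is coherent if `H` is (`X` locally Noetherian);
* `proj_surjective`, `ker_proj`: on stalks, `proj I H` is surjective with kernel `I_x H_x`.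
-/

set_option autoImplicit false
universe u

open CategoryTheory CategoryTheory.Limits AlgebraicGeometry TopologicalSpace Opposite

noncomputable section

namespace Groth.Agent.Gaga.H980.QuotStalk

open Groth.Agent.Fdesc.PullbackStalk Groth.Agent.Fdesc.Skyscraper

variable {X : Scheme.{u}} (I : X.IdealSheafData) (H : X.Modules)

/-- The quotient `H / I H`. -/
def quot : X.Modules :=
  (Scheme.Modules.pushforward I.subschemeι).obj ((Scheme.Modules.pullback I.subschemeι).obj H)

/-- The projection `H ⟶ H / I H`. -/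
def proj : H ⟶ quot I H :=
  (Scheme.Modules.pullbackPushforwardAdjunction I.subschemeι).unit.app H

theorem isCoh_quot [IsLocallyNoetherian X] (hH : Coh.IsCoh H) : Coh.IsCoh (quot I H) := by
  have h := FormalA.PullbackQC.isCoh_pullback I.subschemeι H hH
  exact ⟨CohqA.AffPush.isQCoh_push I.subschemeι _ h.1, CohqA.AffPush.isFT_push I.subschemeι _ h.1 h.2⟩

theorem stalkIdeal_eq_top {x : X} (hx : x ∉ I.support) : IntMult.stalkIdeal I x = ⊤ := by
  obtain ⟨U, hU, hxU, -⟩ := exists_isAffineOpen_mem_and_subset (X := X) (x := x) (U := ⊤) trivial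
  rw [CycA.StalkIdeal.stalkIdeal_eq_map I x ⟨U, hU⟩ hxU]
  rw [Scheme.IdealSheafData.mem_support_iff_of_mem (U := ⟨U, hU⟩) hxU] at hx
  rw [Scheme.mem_zeroLocus_iff] at hx
  push Not at hx
  obtain ⟨a, ha, hxa⟩ := hx
  exact Ideal.eq_top_of_isUnit_mem _ (Ideal.mem_map_of_mem _ ha)
    ((X.mem_basicOpen a x hxU).1 hxa)

/-- The kernel of `M_{i z} → (i^* M)_z` is contained in `J M_{i z}`, `J` the kernel of
`O_{X, i z} → O_{Z, z}`. -/
theorem mem_smul_of_canAdd_eq_zero {Z : Scheme.{u}} (i : Z ⟶ X) [IsClosedImmersion i]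
    (M : X.Modules) (z : Z) (t : M.presheaf.stalk (i z)) (ht : canAdd i M z t = 0) :
    t ∈ (RingHom.ker (i.stalkMap z).hom) • (⊤ : Submodule (X.presheaf.stalk (i z))
      (M.presheaf.stalk (i z))) := by
  set J := RingHom.ker (i.stalkMap z).hom with hJ
  let P : Submodule (X.presheaf.stalk (i z)) (M.presheaf.stalk (i z)) := J • ⊤
  have hs := i.stalkMap_surjective z
  have hk' : ∀ a b : X.presheaf.stalk (i z), i.stalkMap z a = i.stalkMap z b →
      ∀ t : M.presheaf.stalk (i z) ⧸ P, a • t = b • t := by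
    intro a b hab t
    obtain ⟨t, rfl⟩ := Submodule.Quotient.mk_surjective _ t
    rw [← sub_eq_zero, ← sub_smul, ← Submodule.Quotient.mk_smul, Submodule.Quotient.mk_eq_zero]
    refine Submodule.smul_mem_smul ?_ trivial
    rw [hJ, RingHom.mem_ker, map_sub, sub_eq_zero]
    exact hab
  let _ : SMul (Z.presheaf.stalk z) (M.presheaf.stalk (i z) ⧸ P) :=
    ⟨fun r t => Function.surjInv hs r • t⟩
  have hsm : ∀ (a : X.presheaf.stalk (i z)) (t : M.presheaf.stalk (i z) ⧸ P),
      (i.stalkMap z).hom a • t = a • t := by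
    intro a t
    exact hk' _ _ (Function.surjInv_eq hs _) t
  let _ : Module (Z.presheaf.stalk z) (M.presheaf.stalk (i z) ⧸ P) :=
    Function.Surjective.moduleLeft (i.stalkMap z).hom hs hsm
  have h := congrArg (lift i (Q := M.presheaf.stalk (i z) ⧸ P) (M := M)
    P.mkQ.toAddMonoidHom (fun r t => (P.mkQ.map_smul r t).trans (hsm r _).symm)) ht
  have h0 := lift_canAdd i (Q := M.presheaf.stalk (i z) ⧸ P) (M := M)
    P.mkQ.toAddMonoidHom (fun r t => (P.mkQ.map_smul r t).trans (hsm r _).symm) t
  exact (Submodule.Quotient.mk_eq_zero P).1 (h0.symm.trans (h.trans (map_zero _)))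

theorem mem_range_or (x : X) : (∃ z, I.subschemeι z = x) ∨
    (x ∉ I.support ∧ x ∉ Set.range I.subschemeι.base) := by
  by_cases h : x ∈ Set.range I.subschemeι.base
  · exact Or.inl h
  · refine Or.inr ⟨fun hx => h ?_, h⟩
    have := I.range_subschemeι
    exact this.ge hx

theorem subsingleton_stalk_quot {x : X} (hx : x ∉ Set.range I.subschemeι.base) :
    Subsingleton ((quot I H).presheaf.stalk x) :=
  Ega1.ClosedUnit.subsingleton_stalk_pushforward I.subschemeι
    I.subschemeι.isClosedEmbedding.isClosed_range _ x hx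

/-- `H ⟶ H / I H` is surjective on stalks. -/
theorem proj_surjective (x : X) : Function.Surjective (stalkMap (proj I H) x) := by
  rcases mem_range_or I x with ⟨z, rfl⟩ | ⟨-, h⟩
  · intro t
    obtain ⟨s, hs⟩ := Ega1.ClosedUnit.canAdd_surjective I.subschemeι H z
      (I.subschemeι.stalkMap_surjective z) (pushAdd I.subschemeι _ z t)
    exact ⟨s, (Ega1.ClosedUnit.pushAdd_injective I.subschemeι
      I.subschemeι.isClosedEmbedding.isInducing _ z) hs⟩
  · have := subsingleton_stalk_quot I H h
    exact fun t => ⟨0, Subsingleton.elim _ _⟩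

/-- The kernel of `H_x → (H / I H)_x` is `I_x H_x`. -/
theorem ker_proj (x : X) : LinearMap.ker (stalkMap (proj I H) x) =
    IntMult.stalkIdeal I x • (⊤ : Submodule (X.presheaf.stalk x) (H.presheaf.stalk x)) := by
  rcases mem_range_or I x with ⟨z, rfl⟩ | ⟨h, h'⟩
  · have hk : IntMult.stalkIdeal I (I.subschemeι z) = RingHom.ker (I.subschemeι.stalkMap z).hom := by
      rw [← CycA.StalkIdeal.stalkIdeal_ker, I.ker_subschemeι]
    rw [hk]
    apply le_antisymm
    · intro t ht
      refine mem_smul_of_canAdd_eq_zero I.subschemeι H z t ?_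
      have h1 : stalkMap (proj I H) (I.subschemeι z) t = 0 := ht
      exact (congrArg (pushAdd I.subschemeι _ z) h1).trans (map_zero _)
    · rw [Submodule.smul_le]
      intro r hr n _
      rw [LinearMap.mem_ker]
      apply Ega1.ClosedUnit.pushAdd_injective I.subschemeι
        I.subschemeι.isClosedEmbedding.isInducing _ z
      have h1 := canAdd_smul I.subschemeι H z r n
      have h2 : (I.subschemeι.stalkMap z) r = 0 := hr
      rw [h2, zero_smul] at h1
      exact h1.trans (map_zero _).symm
  · rw [stalkIdeal_eq_top I h]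
    have := subsingleton_stalk_quot I H h'
    rw [Submodule.top_smul, Submodule.eq_top_iff']
    intro t
    exact Subsingleton.elim (α := (quot I H).presheaf.stalk x) _ _

end Groth.Agent.Gaga.H980.QuotStalk
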