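import Groth.Agent.Gaga.H990.Stalk
import Groth.Agent.Gaga.H980.AlgGlue
import Groth.Agent.Gaga.H145.ReducedCase
import Groth.Agent.An.H867.Nhds
import Mathlib.Topology.Algebra.MvPolynomial

/-!
# Germs in powers of the maximal ideal are small, and the injectivity half of S4314

`bigO x ρ N`: the ideal of germs of holomorphic functions which are `O(ρ^N)` near `x`.
-/

set_option autoImplicit false
open CategoryTheory AlgebraicGeometry Topology TopologicalSpace Opposite Filter IsLocalRing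
open Groth.Agent.An.H863.PtsBasic Groth.Agent.An.H863.PtsCont
open Groth.Agent.Gaga.H990.ChartAt Groth.Agent.Gaga.H990.Stalk

noncomputable section

namespace Groth.Agent.Gaga.H980.SmallGerm

variable {X : Scheme.{0}} [X.Over An.SC]

/-- The map `O_{X,x} → O_{X^an,x}`. -/
abbrev phi (x : An.Pts X) : X.presheaf.stalk x.pt →+* (An.anSpace X).presheaf.stalk x :=
  (PresheafedSpace.Hom.stalkMap (An.anToScheme X) x).hom

lemma exists_rep (x : An.Pts X) (b : (An.anSpace X).presheaf.stalk x) :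
    ∃ f : An.Pts X → ℂ, toGerm x b = (f : Germ (𝓝 x) ℂ) ∧ ContinuousAt f x := by
  obtain ⟨f, hf, hb⟩ := exists_chartAt_of_stk b
  exact ⟨f, hb, hf.continuousAt⟩

lemma toGerm_phi (x : An.Pts X) (U : X.Opens) (h : x.pt ∈ U) (s : Γ(X, U)) :
    toGerm x (phi x (X.presheaf.germ U x.pt h s)) =
      ((fun y => evAt y U s : An.Pts X → ℂ) : Germ (𝓝 x) ℂ) :=
  toGerm_anToScheme x U h s

lemma bounded_of_continuousAt {x : An.Pts X} {f : An.Pts X → ℂ} (hf : ContinuousAt f x) :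
    ∃ D : ℝ, 0 ≤ D ∧ ∀ᶠ y in 𝓝 x, ‖f y‖ ≤ D := by
  refine ⟨‖f x‖ + 1, by positivity, ?_⟩
  filter_upwards [hf.norm.eventually_lt continuousAt_const (show ‖f x‖ < ‖f x‖ + 1 by linarith)]
    with y hy
  exact hy.le

/-- Germs which are `O(ρ^N)`. -/
def bigO (x : An.Pts X) (ρ : An.Pts X → ℝ) (N : ℕ) :
    Ideal ((An.anSpace X).presheaf.stalk x) where
  carrier := {b | ∃ (f : An.Pts X → ℂ) (C : ℝ), toGerm x b = (f : Germ (𝓝 x) ℂ) ∧
    ∀ᶠ y in 𝓝 x, ‖f y‖ ≤ C * ρ y ^ N}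
  zero_mem' := ⟨0, 0, by rw [map_zero]; rfl, Eventually.of_forall fun y => by simp⟩
  add_mem' := by
    rintro b c ⟨f, C, hf, hfC⟩ ⟨g, D, hg, hgD⟩
    refine ⟨f + g, C + D, by rw [map_add, hf, hg]; rfl, ?_⟩
    filter_upwards [hfC, hgD] with y h1 h2
    rw [Pi.add_apply, add_mul]
    exact (norm_add_le _ _).trans (add_le_add h1 h2)
  smul_mem' := by
    rintro c b ⟨f, C, hf, hfC⟩
    obtain ⟨g, hg, hgc⟩ := exists_rep x c
    obtain ⟨D, hD, hgD⟩ := bounded_of_continuousAt hgc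
    refine ⟨g * f, D * C, by rw [smul_eq_mul, map_mul, hf, hg]; rfl, ?_⟩
    filter_upwards [hfC, hgD] with y h1 h2
    rw [Pi.mul_apply, norm_mul, mul_assoc]
    exact mul_le_mul h2 h1 (norm_nonneg _) hD

lemma mem_bigO {x : An.Pts X} {ρ : An.Pts X → ℝ} {N : ℕ} {b : (An.anSpace X).presheaf.stalk x} :
    b ∈ bigO x ρ N ↔ ∃ (f : An.Pts X → ℂ) (C : ℝ), toGerm x b = (f : Germ (𝓝 x) ℂ) ∧
      ∀ᶠ y in 𝓝 x, ‖f y‖ ≤ C * ρ y ^ N := Iff.rfl

lemma mul_mem_bigO {x : An.Pts X} {ρ : An.Pts X → ℝ} {N M : ℕ}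
    {b c : (An.anSpace X).presheaf.stalk x} (hb : b ∈ bigO x ρ N) (hc : c ∈ bigO x ρ M) :
    b * c ∈ bigO x ρ (N + M) := by
  obtain ⟨f, C, hf, hfC⟩ := hb
  obtain ⟨g, D, hg, hgD⟩ := hc
  refine ⟨f * g, C * D, by rw [map_mul, hf, hg]; rfl, ?_⟩
  filter_upwards [hfC, hgD] with y h1 h2
  rw [Pi.mul_apply, norm_mul, pow_add]
  calc ‖f y‖ * ‖g y‖ ≤ (C * ρ y ^ N) * (D * ρ y ^ M) :=
        mul_le_mul h1 h2 (norm_nonneg _) ((norm_nonneg _).trans h1)
    _ = C * D * (ρ y ^ N * ρ y ^ M) := by ring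

lemma pow_le_bigO {x : An.Pts X} {ρ : An.Pts X → ℝ}
    {I : Ideal ((An.anSpace X).presheaf.stalk x)} (hI : I ≤ bigO x ρ 1) (N : ℕ) :
    I ^ N ≤ bigO x ρ N := by
  induction N with
  | zero =>
    intro b _
    obtain ⟨g, hg, hgc⟩ := exists_rep x b
    obtain ⟨D, hD, hgD⟩ := bounded_of_continuousAt hgc
    exact ⟨g, D, hg, by simpa using hgD⟩
  | succ N ih =>
    rw [pow_succ]
    refine Ideal.mul_le.2 fun b hb c hc => ?_
    exact mul_mem_bigO (ih hb) (hI hc)

variable (x : An.Pts X) (U : X.Opens) (hx : x.pt ∈ U)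

/-- Value of the section as a total function, for a family. -/
def rho {ι : Type*} [Fintype ι] (t : ι → Γ(X, U)) (y : An.Pts X) : ℝ :=
  ‖fun j => evAt y U (t j)‖

lemma germ_mem_bigO {ι : Type*} [Fintype ι] (t : ι → Γ(X, U)) (j : ι) :
    phi x (X.presheaf.germ U x.pt hx (t j)) ∈ bigO x (rho U t) 1 := by
  refine ⟨_, 1, toGerm_phi x U hx (t j), Eventually.of_forall fun y => ?_⟩
  rw [pow_one, one_mul]
  exact norm_le_pi_norm (fun j => evAt y U (t j)) j

/-- The maximal ideal of the local ring at `x` is generated by the germs of `t_j`. -/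
lemma ker_evHom_le {ι : Type*} (t : ι → Γ(X, U)) (ht : ∀ j, x.ev U hx (t j) = 0)
    (hgen : ∀ f : Γ(X, U), ∃ P : MvPolynomial ι ℂ, f = MvPolynomial.eval₂ (strU U) t P) :
    RingHom.ker (evHom x U hx) ≤ Ideal.span (Set.range t) := by
  intro f hf
  obtain ⟨P, rfl⟩ := hgen f
  have h0 : x.ev U hx (MvPolynomial.eval₂ (strU U) t P) = 0 := hf
  clear hf
  have key : MvPolynomial.eval₂ (strU U) t P -
      strU U (x.ev U hx (MvPolynomial.eval₂ (strU U) t P)) ∈ Ideal.span (Set.range t) := by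
    clear h0
    induction P using MvPolynomial.induction_on with
    | C c => rw [MvPolynomial.eval₂_C, ev_strU, sub_self]; exact Ideal.zero_mem _
    | add p q hp hq =>
      rw [MvPolynomial.eval₂_add, ev_add, map_add]
      have h := Ideal.add_mem _ hp hq
      convert h using 1
      ring
    | mul_X p i hp =>
      rw [MvPolynomial.eval₂_mul, MvPolynomial.eval₂_X, ev_mul, ht i, mul_zero, map_zero, sub_zero]
      exact Ideal.mul_mem_left _ _ (Ideal.subset_span ⟨i, rfl⟩)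
  rwa [h0, map_zero, sub_zero] at key

/-- The ideal of the point in an affine chart is the kernel of the evaluation. -/
lemma primeIdealOf_eq (hU : IsAffineOpen U) :
    (hU.primeIdealOf ⟨x.pt, hx⟩).asIdeal = RingHom.ker (evHom x U hx) := by
  have h1 := hU.fromSpec_primeIdealOf ⟨x.pt, hx⟩
  have h2 := Groth.Agent.An.H867.Nhds.fromSpec_kerPt x U hU hx
  have h3 := hU.fromSpec.isOpenEmbedding.injective (h1.trans h2.symm)
  rw [h3]
  rfl

/-- The maximal ideal of the local ring in terms of an affine chart. -/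
lemma maximalIdeal_eq (hU : IsAffineOpen U) :
    maximalIdeal (X.presheaf.stalk x.pt) =
      (RingHom.ker (evHom x U hx)).map (X.presheaf.germ U x.pt hx).hom := by
  let _ : Algebra Γ(X, U) (X.presheaf.stalk x.pt) := TopCat.Presheaf.algebra_section_stalk X.presheaf ⟨x.pt, hx⟩
  have h := hU.isLocalization_stalk ⟨x.pt, hx⟩
  have h1 := IsLocalization.AtPrime.map_eq_maximalIdeal (hU.primeIdealOf ⟨x.pt, hx⟩).asIdeal
    (X.presheaf.stalk x.pt)
  rw [← h1, primeIdealOf_eq x U hx hU]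
  rfl

/-- `m B` consists of germs which are `O(ρ)`. -/
lemma map_maximalIdeal_le (hU : IsAffineOpen U) {ι : Type*} [Fintype ι] (t : ι → Γ(X, U))
    (ht : ∀ j, x.ev U hx (t j) = 0)
    (hgen : ∀ f : Γ(X, U), ∃ P : MvPolynomial ι ℂ, f = MvPolynomial.eval₂ (strU U) t P) :
    (maximalIdeal (X.presheaf.stalk x.pt)).map (phi x) ≤ bigO x (rho U t) 1 := by
  rw [maximalIdeal_eq x U hx hU, Ideal.map_map]
  refine (Ideal.map_mono (ker_evHom_le x U hx t ht hgen)).trans ?_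
  rw [Ideal.map_span, Ideal.span_le]
  rintro _ ⟨_, ⟨j, rfl⟩, rfl⟩
  exact germ_mem_bigO x U hx t j

/-- Small germs in an affine chart. -/
lemma small_of_mem_bigO [LocallyOfFiniteType (X ↘ An.SC)] (hU : IsAffineOpen U) {ι : Type*}
    [Fintype ι] (t : ι → Γ(X, U)) (ht : ∀ j, x.ev U hx (t j) = 0)
    (hgen : ∀ f : Γ(X, U), ∃ P : MvPolynomial ι ℂ, f = MvPolynomial.eval₂ (strU U) t P)
    (N : ℕ) (s : Γ(X, U)) (hs : phi x (X.presheaf.germ U x.pt hx s) ∈ bigO x (rho U t) N) :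
    @H145.DomainCase.Small Γ(X, U) _ (strU U).toAlgebra ι _ t N s := by
  obtain ⟨f, C, hf, hfC⟩ := hs
  rw [toGerm_phi x U hx s] at hf
  have h1 : ∀ᶠ y in 𝓝 x, ‖evAt y U s‖ ≤ C * rho U t y ^ N := by
    filter_upwards [Germ.coe_eq.1 hf, hfC] with y h1 h2
    rw [h1]
    exact h2
  obtain ⟨F, ε, hε, hball⟩ := Groth.Agent.An.H867.Nhds.exists_ball_subset x U hU hx h1
  choose P hP using hgen
  -- the neighbourhood of `0`
  have h2 : {z : ι → ℂ | ∀ g ∈ F, ‖MvPolynomial.eval z (P g) - MvPolynomial.eval 0 (P g)‖ < ε} ∈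
      𝓝 (0 : ι → ℂ) := by
    rw [show {z : ι → ℂ | ∀ g ∈ F, ‖MvPolynomial.eval z (P g) - MvPolynomial.eval 0 (P g)‖ < ε} =
      ⋂ g ∈ F, {z : ι → ℂ | ‖MvPolynomial.eval z (P g) - MvPolynomial.eval 0 (P g)‖ < ε} by
        ext; simp]
    refine (Filter.biInter_finset_mem F).2 fun g _ => ?_
    have h3 : Continuous fun z : ι → ℂ =>
        ‖MvPolynomial.eval z (P g) - MvPolynomial.eval 0 (P g)‖ :=
      ((MvPolynomial.continuous_eval (P g)).sub continuous_const).norm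
    refine (isOpen_lt h3 continuous_const).mem_nhds ?_
    simpa using hε
  obtain ⟨η, hη, hηb⟩ := Metric.mem_nhds_iff.1 h2
  let _ : Algebra ℂ Γ(X, U) := (strU U).toAlgebra
  refine ⟨C, η, hη, fun y hy => ?_⟩
  obtain ⟨y', hy', hyy⟩ := Groth.Agent.An.H867.Nhds.exists_pts_of_ringHom U hU
    (y : Γ(X, U) →+* ℂ) (fun c => y.commutes c)
  have hval : ∀ g : Γ(X, U), y'.ev U hy' g = y g := fun g => DFunLike.congr_fun hyy g
  have hev : ∀ (z : An.Pts X) (hz : z.pt ∈ U) (g : Γ(X, U)),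
      z.ev U hz g = MvPolynomial.eval (fun j => z.ev U hz (t j)) (P g) := by
    intro z hz g
    conv_lhs => rw [hP g]
    have h4 := MvPolynomial.hom_eval₂ (P g) (strU U) (evHom z U hz) t
    rw [Groth.Agent.An.H867.Nhds.evHom_comp_strU] at h4
    exact h4
  have h5 : y' ∈ Groth.Agent.An.H867.Nhds.ball x U hx F ε := by
    refine ⟨hy', fun g hg => ?_⟩
    rw [hev y' hy' g, hev x hx g]
    have h6 : (fun j => x.ev U hx (t j)) = 0 := funext ht
    rw [h6]
    have h8 : (fun j => y'.ev U hy' (t j)) ∈ Metric.ball (0 : ι → ℂ) η := by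
      rw [mem_ball_zero_iff]
      simp only [hval]
      exact hy
    exact hηb h8 g hg
  have h7 : ‖evAt y' U s‖ ≤ C * rho U t y' ^ N := hball h5
  rw [evAt_of_mem hy', hval] at h7
  refine h7.trans (le_of_eq ?_)
  unfold rho
  congr 3
  funext j
  rw [evAt_of_mem hy', hval]

/-- **Injectivity half of S4314**: for every `n` there is `N` such that an algebraic germ whose
analytic germ lies in `(m B)^N` lies in `m^n`. -/
theorem exists_bound [LocallyOfFiniteType (X ↘ An.SC)] [IsReduced X] (n : ℕ) :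
    ∃ N : ℕ, ∀ a : X.presheaf.stalk x.pt,
      phi x a ∈ ((maximalIdeal (X.presheaf.stalk x.pt)).map (phi x)) ^ N →
      a ∈ (maximalIdeal (X.presheaf.stalk x.pt)) ^ n := by
  obtain ⟨U, hU, hx, -⟩ := exists_isAffineOpen_mem_and_subset (x := x.pt) (U := ⊤) trivial
  let _ : Algebra ℂ Γ(X, U) := (strU U).toAlgebra
  have hft : Algebra.FiniteType ℂ Γ(X, U) := Groth.Agent.An.H867.Nhds.finiteType_strU U hU
  obtain ⟨ι, hι, ψ, hψ⟩ := Algebra.FiniteType.iff_quotient_mvPolynomial'.1 hft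
  let t : ι → Γ(X, U) := fun j => ψ (MvPolynomial.X j) - strU U (x.ev U hx (ψ (MvPolynomial.X j)))
  have ht : ∀ j, x.ev U hx (t j) = 0 := fun j => by
    rw [ev_sub, ev_strU, sub_self]
  have hgen : ∀ f : Γ(X, U), ∃ P : MvPolynomial ι ℂ, f = MvPolynomial.eval₂ (strU U) t P := by
    intro f
    obtain ⟨Q, rfl⟩ := hψ f
    induction Q using MvPolynomial.induction_on with
    | C c =>
      refine ⟨MvPolynomial.C c, ?_⟩
      rw [MvPolynomial.eval₂_C]
      exact ψ.commutes c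
    | add p q hp hq =>
      obtain ⟨P, hP⟩ := hp
      obtain ⟨Q, hQ⟩ := hq
      exact ⟨P + Q, by rw [map_add, hP, hQ, MvPolynomial.eval₂_add]⟩
    | mul_X p i hp =>
      obtain ⟨P, hP⟩ := hp
      refine ⟨P * (MvPolynomial.X i + MvPolynomial.C (x.ev U hx (ψ (MvPolynomial.X i)))), ?_⟩
      rw [map_mul, hP, MvPolynomial.eval₂_mul, MvPolynomial.eval₂_add, MvPolynomial.eval₂_X,
        MvPolynomial.eval₂_C]
      congr 1
      exact (sub_add_cancel _ _).symm
  let x₀ : Γ(X, U) →ₐ[ℂ] ℂ := { evHom x U hx with commutes' := fun c => ev_strU x U hx c }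
  obtain ⟨N, hN⟩ := H145.ReducedCase.reduced_case x₀ t ht n
  refine ⟨N, fun a ha => ?_⟩
  let _ : Algebra Γ(X, U) (X.presheaf.stalk x.pt) :=
    TopCat.Presheaf.algebra_section_stalk X.presheaf ⟨x.pt, hx⟩
  have hloc := hU.isLocalization_stalk ⟨x.pt, hx⟩
  have h1 := AlgGlue.exists_of_localization (phi x) (hU.primeIdealOf ⟨x.pt, hx⟩).asIdeal
    ((maximalIdeal (X.presheaf.stalk x.pt)).map (phi x)) n N ?_ a ha
  · have h2 := IsLocalization.AtPrime.map_eq_maximalIdeal (hU.primeIdealOf ⟨x.pt, hx⟩).asIdeal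
      (X.presheaf.stalk x.pt)
    rwa [h2] at h1
  · intro f hf
    rw [primeIdealOf_eq x U hx hU]
    refine hN f (small_of_mem_bigO x U hx hU t ht hgen N f ?_)
    exact pow_le_bigO (map_maximalIdeal_le x U hx hU t ht hgen) N hf

end Groth.Agent.Gaga.H980.SmallGerm
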